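import Cfsg.Agent.H395.EPM.Count
import Cfsg.Agent.H59.EP.UBGen
import Cfsg.Agent.H173.EP.LineBound

/-!
# S3499: point stabilisers with socle `M22`, large groups
-/

set_option autoImplicit false

namespace Cfsg.Agent.H395.EPM

open Cfsg Cfsg.Agent.H284 Cfsg.Agent.H59.EP

variable {Q : Type*} [Group Q] [Finite Q] {A : Subgroup Q} {Γ : Subgroup (MulAut Q)}

/-- the order of a group with a point stabiliser with socle `M22` is less than `2 ^ 75` -/
theorem card_lt (hg : TwoGen.{0}) (hs : IsSimpleGroup Q) (h : EPT A Γ) {N : Subgroup Q} (hNA : N ≤ A)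
    (hN : ∀ a ∈ A, ∀ n ∈ N, a * n * a⁻¹ ∈ N) (e : Spor.IsoM22 N)
    (hC : ∀ a ∈ A, (∀ n ∈ N, a * n = n * a) → a = 1) : Nat.card Q < 2 ^ 75 := by
  have hNs : IsSimpleGroup N := by
    obtain ⟨f⟩ := e
    have : IsSimpleGroup Spor.M22 := Cfsg.Agent.SporadicA.MathieuRecog.simple_M22
    exact f.isSimpleGroup
  have hNc : ¬ ∀ a ∈ N, ∀ b ∈ N, a * b = b * a := by
    intro hc
    have hne : Nontrivial N := hNs.toNontrivial
    obtain ⟨n, hn⟩ := exists_ne (1 : N)
    exact hn (center_triv e n (fun k => Subtype.ext (hc n n.2 k k.2)))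
  have hab := noAb_of_soc hNA hN hNs hNc hC
  have hidx : ∀ (l : List (ℕ × ℕ)) (k m : ℕ), (∀ x ∈ l, x.1.Prime ∧ 0 < x.2) → (l.map Prod.fst).Nodup →
      k = (l.map fun x => x.1 ^ x.2).prod → k < 60 ^ 61 → Nat.card A = k →
      (1 + ((l.map fun x => gal x.1 x.2).sum * (k / 6) + k ^ 2 / 60 + k ^ 3 / 12744000) * (2 * (k / 6))) * k < m →
      Nat.card Q < m := by
    intro l k m h1 h2 hk hB hA hm
    have h3 := EPT.ncard_le_gen_list h hg hab l h1 h2 (hA.trans hk) (by rw [hA]; exact hB)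
    have h4 := Cfsg.Agent.H173.EP.ub1 hs h (μ := 6) (by norm_num) fun _ hx => EPT.six_le h hab hx
    rw [hA] at h3 h4
    have h6 := h4.trans (Nat.add_le_add_left (Nat.mul_le_mul_right _ h3) 1)
    have h7 := A.card_mul_index
    rw [← h7, hA, mul_comm]
    exact lt_of_le_of_lt (Nat.mul_le_mul_right _ h6) hm
  rcases card_A hNA hN e hC with hA | hA
  · refine hidx [(2, 7), (3, 2), (5, 1), (7, 1), (11, 1)] 443520 _ ?_ (by decide) (by norm_num) (by norm_num) hA (by decide +kernel)
    · intro x hx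
      simp only [List.mem_cons, List.not_mem_nil, or_false] at hx
      rcases hx with rfl | rfl | rfl | rfl | rfl <;> norm_num
  · refine hidx [(2, 8), (3, 2), (5, 1), (7, 1), (11, 1)] 887040 _ ?_ (by decide) (by norm_num) (by norm_num) hA (by decide +kernel)
    · intro x hx
      simp only [List.mem_cons, List.not_mem_nil, or_false] at hx
      rcases hx with rfl | rfl | rfl | rfl | rfl <;> norm_num

end Cfsg.Agent.H395.EPM
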