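import Mathlib

/-!
# Fixed points of a Sylow subgroup of prime order
-/

set_option autoImplicit false

open scoped Pointwise

namespace Cfsg.Agent.H395.EPM

open MulAction Subgroup

section

/-- subgroups of order `p` are conjugate if `p²` does not divide the order -/
theorem exists_conj_of_card {G : Type*} [Group G] [Finite G] {p : ℕ} (hp : p.Prime) (hG : ¬ p ^ 2 ∣ Nat.card G)
    {P R : Subgroup G} (hP : Nat.card P = p) (hR : Nat.card R = p) :
    ∃ g : G, ∀ y, y ∈ R ↔ g⁻¹ * y * g ∈ P := by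
  have : Fact p.Prime := ⟨hp⟩
  have key : ∀ H : Subgroup G, Nat.card H = p → ∃ S : Sylow p G, (S : Subgroup G) = H := by
    intro H hH
    have h1 : IsPGroup p H := IsPGroup.of_card (n := 1) (by rw [hH, pow_one])
    obtain ⟨S, hS⟩ := h1.exists_le_sylow
    refine ⟨S, ?_⟩
    symm
    apply Subgroup.eq_of_le_of_card_ge hS
    obtain ⟨k, hk⟩ := IsPGroup.iff_card.1 S.2
    have h2 : k < 2 := by
      by_contra h
      push Not at h
      apply hG
      exact ((pow_dvd_pow p h).trans hk.symm.dvd).trans (Subgroup.card_subgroup_dvd_card _)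
    rw [hk, hH]
    calc p ^ k ≤ p ^ 1 := Nat.pow_le_pow_right hp.pos (by omega)
      _ = p := pow_one p
  obtain ⟨S, hS⟩ := key P hP
  obtain ⟨T, hT⟩ := key R hR
  obtain ⟨g, hg⟩ := MulAction.exists_smul_eq G S T
  refine ⟨g, fun y => ?_⟩
  rw [← hT, ← hg, ← hS]
  rw [Sylow.coe_subgroup_smul, Subgroup.mem_pointwise_smul_iff_inv_smul_mem, ← map_inv, MulAut.smul_def,
    MulAut.conj_apply, inv_inv]

variable {Q : Type*} [Group Q] [Finite Q] {A P : Subgroup Q} {p : ℕ}

/-- the fixed points of `P` on the cosets -/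
def Fx (A P : Subgroup Q) : Set (Q ⧸ A) := {c | ∀ g ∈ P, g • c = c}

omit [Finite Q] in
theorem smul_eq_iff (g x : Q) : g • ((x : Q) : Q ⧸ A) = (x : Q ⧸ A) ↔ x⁻¹ * g * x ∈ A := by
  rw [MulAction.Quotient.smul_coe, smul_eq_mul, QuotientGroup.eq, ← inv_mem_iff (H := A)]
  have : ((g * x)⁻¹ * x)⁻¹ = x⁻¹ * g * x := by group
  rw [this]

omit [Finite Q] in
theorem mem_Fx (x : Q) : ((x : Q) : Q ⧸ A) ∈ Fx A P ↔ ∀ g ∈ P, x⁻¹ * g * x ∈ A :=
  forall₂_congr fun g _ => smul_eq_iff g x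

omit [Finite Q] in
theorem base_mem (hPA : P ≤ A) : ((1 : Q) : Q ⧸ A) ∈ Fx A P := by
  rw [mem_Fx]
  intro g hg
  rw [inv_one, one_mul, mul_one]
  exact hPA hg

theorem orbit_norm (hp : p.Prime) (hP : Nat.card P = p) (hPA : P ≤ A) (hA : ¬ p ^ 2 ∣ Nat.card A) :
    orbit (normalizer (P : Set Q)) ((1 : Q) : Q ⧸ A) = Fx A P := by
  ext c
  obtain ⟨x, rfl⟩ := QuotientGroup.mk_surjective c
  constructor
  · rintro ⟨n, hn⟩
    intro g hg
    change (n : Q) • ((1 : Q) : Q ⧸ A) = (x : Q ⧸ A) at hn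
    rw [← hn, ← mul_smul]
    have h1 : g * (n : Q) = n * ((n : Q)⁻¹ * g * n) := by group
    rw [h1, mul_smul]
    congr 1
    have h2 : (n : Q)⁻¹ * g * n ∈ P := by
      have h3 := (Subgroup.mem_normalizer_iff.1 (inv_mem n.2) g).1 hg
      rwa [inv_inv] at h3
    exact base_mem hPA _ h2
  · intro h
    have h' := (mem_Fx x).1 h
    -- the conjugate of `P`
    have hR : Nat.card ((P.map (MulAut.conj x⁻¹).toMonoidHom).subgroupOf A) = p := by
      have h1 : P.map (MulAut.conj x⁻¹).toMonoidHom ≤ A := by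
        rintro _ ⟨g, hg, rfl⟩
        have := h' g hg
        simpa using this
      rw [Nat.card_congr (Subgroup.subgroupOfEquivOfLe h1).toEquiv,
        ← Nat.card_congr (P.equivMapOfInjective (MulAut.conj x⁻¹).toMonoidHom (MulAut.conj x⁻¹).injective).toEquiv, hP]
    have hP' : Nat.card (P.subgroupOf A) = p := by
      rw [Nat.card_congr (Subgroup.subgroupOfEquivOfLe hPA).toEquiv, hP]
    obtain ⟨a, ha⟩ := exists_conj_of_card hp hA hP' hR
    -- `a P a⁻¹ = x⁻¹ P x`
    have h2 : ∀ y : Q, y ∈ P → (x * a)⁻¹ * y * (x * a) ∈ P := by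
      intro y hy
      have h3 : x⁻¹ * y * x ∈ A := h' y hy
      have h4 : (⟨x⁻¹ * y * x, h3⟩ : A) ∈ (P.map (MulAut.conj x⁻¹).toMonoidHom).subgroupOf A := by
        rw [Subgroup.mem_subgroupOf]
        exact ⟨y, hy, by simp⟩
      have h5 := (ha _).1 h4
      rw [Subgroup.mem_subgroupOf] at h5
      have h6 : (((a : A)⁻¹ * ⟨x⁻¹ * y * x, h3⟩ * a : A) : Q) = (x * a)⁻¹ * y * (x * a) := by
        push_cast
        group
      rwa [h6] at h5
    have h7 : (x * a : Q)⁻¹ ∈ normalizer (P : Set Q) := by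
      rw [Subgroup.mem_normalizer_iff]
      have hle : P.map (MulAut.conj (x * a : Q)⁻¹).toMonoidHom ≤ P := by
        rintro _ ⟨y, hy, rfl⟩
        have := h2 y hy
        simpa [mul_assoc] using this
      have heq : P.map (MulAut.conj (x * a : Q)⁻¹).toMonoidHom = P := by
        apply Subgroup.eq_of_le_of_card_ge hle
        rw [← Nat.card_congr (P.equivMapOfInjective (MulAut.conj (x * a : Q)⁻¹).toMonoidHom
          (MulAut.conj (x * a : Q)⁻¹).injective).toEquiv]
      intro y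
      constructor
      · intro hy
        rw [inv_inv]
        exact h2 y hy
      · intro hy
        have hy' : (x * a : Q)⁻¹ * y * (x * a : Q)⁻¹⁻¹ ∈ P := hy
        rw [← heq] at hy'
        obtain ⟨z, hz, hzz⟩ := hy'
        have h8 : (x * a : Q)⁻¹ * z * (x * a : Q)⁻¹⁻¹ = (x * a : Q)⁻¹ * y * (x * a : Q)⁻¹⁻¹ := hzz
        have h9 : z = y := mul_left_cancel (mul_right_cancel h8)
        rw [← h9]
        exact hz
    refine ⟨⟨x * a, by simpa using inv_mem h7⟩, ?_⟩
    change (x * (a : Q)) • ((1 : Q) : Q ⧸ A) = (x : Q ⧸ A)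
    rw [MulAction.Quotient.smul_coe, smul_eq_mul, mul_one, QuotientGroup.eq]
    have : (x * (a : Q))⁻¹ * x = (a : Q)⁻¹ := by group
    rw [this]
    exact inv_mem a.2

theorem fx_card (hp : p.Prime) (hP : Nat.card P = p) (hPA : P ≤ A) (hA : ¬ p ^ 2 ∣ Nat.card A) :
    (Fx A P).ncard * Nat.card (normalizer (P : Set Q) ⊓ A : Subgroup Q) = Nat.card (normalizer (P : Set Q)) := by
  have h1 := Nat.card_congr (orbitProdStabilizerEquivGroup (normalizer (P : Set Q)) ((1 : Q) : Q ⧸ A))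
  rw [Nat.card_prod, orbit_norm hp hP hPA hA] at h1
  rw [← h1]
  have h2 : (Fx A P).ncard = Nat.card (Fx A P) := rfl
  rw [h2]
  congr 1
  have h3 : ∀ g : normalizer (P : Set Q), g ∈ stabilizer (normalizer (P : Set Q)) ((1 : Q) : Q ⧸ A) ↔ (g : Q) ∈ A := by
    intro g
    rw [mem_stabilizer_iff]
    have h4 := smul_eq_iff (A := A) (g : Q) 1
    rw [inv_one, one_mul, mul_one] at h4
    exact h4
  exact Nat.card_congr
    { toFun := fun g => ⟨⟨g.1, (Subgroup.mem_inf.1 g.2).1⟩, (h3 _).2 (Subgroup.mem_inf.1 g.2).2⟩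
      invFun := fun g => ⟨g.1.1, Subgroup.mem_inf.2 ⟨g.1.2, (h3 _).1 g.2⟩⟩
      left_inv := fun g => rfl
      right_inv := fun g => rfl }

/-- congruence -/
theorem fx_mod (hp : p.Prime) (hP : Nat.card P = p) : A.index ≡ (Fx A P).ncard [MOD p] := by
  have : Fact p.Prime := ⟨hp⟩
  have h1 : IsPGroup p P := IsPGroup.of_card (n := 1) (by rw [hP, pow_one])
  have h2 := h1.card_modEq_card_fixedPoints (Q ⧸ A)
  have h3 : Nat.card (fixedPoints P (Q ⧸ A)) = (Fx A P).ncard := by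
    have h4 : (fixedPoints P (Q ⧸ A)) = Fx A P := by
      ext c
      constructor
      · intro h g hg
        exact h ⟨g, hg⟩
      · intro h g
        exact h g g.2
    rw [h4]
    rfl
  rw [h3] at h2
  exact h2

end

end Cfsg.Agent.H395.EPM
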